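import Mathlib.LinearAlgebra.TensorPower.Symmetric
import Mathlib.LinearAlgebra.Multilinear.Curry
import Mathlib.RingTheory.IsTensorProduct

/-!
# Base change of multilinear maps and of symmetric powers

For a ring map `R → R'` and an `R`-linear map `f : M → M'` exhibiting `M'` as the base change of `M`,
every `R`-multilinear map `M^ι → N` to an `R'`-module extends uniquely to an `R'`-multilinear map
`M'^ι → N`; consequently `R' ⊗ Sym^ι_R(M) ≃ Sym^ι_{R'}(M')`.
-/

set_option autoImplicit false

noncomputable section

open scoped TensorProduct

namespace Groth.Agent.Ega4late.H519.SymBC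

universe u v w

section ext

variable {R M N ι : Type*} [CommRing R] [AddCommGroup M] [Module R M] [AddCommGroup N] [Module R N]

/-- Two multilinear maps agreeing on tuples with entries in a spanning set are equal. -/
theorem multilinear_ext_of_span [Finite ι] (s : Set M) (hs : Submodule.span R s = ⊤)
    {G G' : MultilinearMap R (fun _ : ι => M) N}
    (h : ∀ x : ι → M, (∀ i, x i ∈ s) → G x = G' x) : G = G' := by
  classical
  have := Fintype.ofFinite ι
  have key : ∀ (t : Finset ι) (x : ι → M), (∀ i, i ∉ t → x i ∈ s) → G x = G' x := by
    intro t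
    induction t using Finset.induction_on with
    | empty => intro x hx; exact h x (fun i => hx i (Finset.notMem_empty i))
    | insert a t hat ih =>
      intro x hx
      have h1 : ∀ y : M, G (Function.update x a y) = G' (Function.update x a y) := by
        intro y
        have hy : y ∈ Submodule.span R s := by rw [hs]; trivial
        induction hy using Submodule.span_induction with
        | mem y hy =>
          apply ih
          intro i hi
          by_cases hia : i = a
          · subst hia; simpa using hy
          · rw [Function.update_of_ne hia]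
            exact hx i (by simp [hia, hi])
        | zero => rw [MultilinearMap.map_update_zero, MultilinearMap.map_update_zero]
        | add y z _ _ h1 h2 => rw [MultilinearMap.map_update_add, MultilinearMap.map_update_add, h1, h2]
        | smul c y _ h1 => rw [MultilinearMap.map_update_smul, MultilinearMap.map_update_smul, h1]
      have := h1 (x a)
      rwa [Function.update_eq_self] at this
  ext x
  exact key Finset.univ x (fun i hi => absurd (Finset.mem_univ i) hi)

end ext

section baseChange

variable {R : Type*} {R' : Type*} [CommRing R] [CommRing R'] [Algebra R R']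
  {M M' : Type*} [AddCommGroup M] [Module R M] [AddCommGroup M'] [Module R' M'] [Module R M']
  [IsScalarTower R R' M'] {f : M →ₗ[R] M'}

/-- The image of a base change map spans. -/
theorem span_range_eq_top (hf : IsBaseChange R' f) :
    Submodule.span R' (Set.range f) = ⊤ := by
  rw [eq_top_iff]
  rintro x -
  induction x using hf.inductionOn with
  | zero => exact Submodule.zero_mem _
  | tmul m => exact Submodule.subset_span ⟨m, rfl⟩
  | smul s n h => exact Submodule.smul_mem _ _ h
  | add a b ha hb => exact Submodule.add_mem _ ha hb

variable {N : Type*} [AddCommGroup N] [Module R' N]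

theorem multilinear_ext (hf : IsBaseChange R' f) {ι : Type*} [Finite ι]
    {G G' : MultilinearMap R' (fun _ : ι => M') N}
    (h : ∀ m : ι → M, G (fun i => f (m i)) = G' (fun i => f (m i))) : G = G' := by
  refine multilinear_ext_of_span (Set.range f) (span_range_eq_top hf) fun x hx => ?_
  choose m hm using hx
  have : x = fun i => f (m i) := funext fun i => (hm i).symm
  rw [this, h]

variable [Module R N] [IsScalarTower R R' N]

theorem exists_ext_fin (hf : IsBaseChange R' f) (n : ℕ)
    (g : MultilinearMap R (fun _ : Fin n => M) N) :
    ∃ G : MultilinearMap R' (fun _ : Fin n => M') N, ∀ m, G (fun i => f (m i)) = g m := by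
  induction n with
  | zero =>
    refine ⟨MultilinearMap.constOfIsEmpty R' _ (g 0), fun m => ?_⟩
    rw [MultilinearMap.constOfIsEmpty_apply, Subsingleton.elim m 0, Function.const_apply]
  | succ n ih =>
    choose E hE using ih
    have : IsScalarTower R R' (MultilinearMap R' (fun _ : Fin n => M') N) :=
      ⟨fun r s x => MultilinearMap.ext fun m => smul_assoc r s (x m)⟩
    let E' : MultilinearMap R (fun _ : Fin n => M) N →ₗ[R] MultilinearMap R' (fun _ : Fin n => M') N :=
      { toFun := E
        map_add' := fun a b => multilinear_ext hf fun m => by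
          change _ = E a (fun i => f (m i)) + E b (fun i => f (m i))
          rw [hE, hE, hE]
          rfl
        map_smul' := fun r a => multilinear_ext hf fun m => by
          change _ = r • E a (fun i => f (m i))
          rw [hE, hE]
          rfl }
    refine ⟨(hf.lift (E' ∘ₗ g.curryLeft)).uncurryLeft, fun m => ?_⟩
    rw [LinearMap.uncurryLeft_apply, hf.lift_eq, LinearMap.comp_apply]
    change (E (g.curryLeft (m 0))) (fun i => f (m i.succ)) = _
    rw [hE, MultilinearMap.curryLeft_apply]
    congr 1
    exact Fin.cons_self_tail m

theorem exists_ext (hf : IsBaseChange R' f) {ι : Type*} [Finite ι]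
    (g : MultilinearMap R (fun _ : ι => M) N) :
    ∃ G : MultilinearMap R' (fun _ : ι => M') N, ∀ m, G (fun i => f (m i)) = g m := by
  obtain ⟨n, ⟨e⟩⟩ := Finite.exists_equiv_fin ι
  obtain ⟨G, hG⟩ := exists_ext_fin hf n (g.domDomCongr e)
  refine ⟨G.domDomCongr e.symm, fun m => ?_⟩
  rw [MultilinearMap.domDomCongr_apply]
  change G (fun i => f (m (e.symm i))) = _
  rw [hG (fun i => m (e.symm i)), MultilinearMap.domDomCongr_apply]
  congr 1
  funext i
  simp

/-- The extension of a multilinear map along a base change. -/
def extend (hf : IsBaseChange R' f) {ι : Type*} [Finite ι]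
    (g : MultilinearMap R (fun _ : ι => M) N) : MultilinearMap R' (fun _ : ι => M') N :=
  (exists_ext hf g).choose

theorem extend_apply (hf : IsBaseChange R' f) {ι : Type*} [Finite ι]
    (g : MultilinearMap R (fun _ : ι => M) N) (m : ι → M) :
    extend hf g (fun i => f (m i)) = g m :=
  (exists_ext hf g).choose_spec m

theorem extend_symm (hf : IsBaseChange R' f) {ι : Type*} [Finite ι]
    (g : MultilinearMap R (fun _ : ι => M) N)
    (hg : ∀ (e : Equiv.Perm ι) (m : ι → M), g (fun i => m (e i)) = g m)
    (e : Equiv.Perm ι) (m : ι → M') : extend hf g (fun i => m (e i)) = extend hf g m := by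
  have : (extend hf g).domDomCongr e = extend hf g := by
    refine multilinear_ext hf fun m => ?_
    rw [MultilinearMap.domDomCongr_apply]
    change extend hf g (fun i => f (m (e i))) = _
    rw [extend_apply hf g (fun i => m (e i)), extend_apply, hg]
  have h2 := congrArg (fun G => G m) this
  exact h2

end baseChange

section sym

variable {R : Type u} {ι : Type u} {M : Type v} {N : Type w} [CommRing R] [AddCommGroup M] [Module R M]
  [AddCommGroup N] [Module R N]

/-- Universal property of the symmetric power. -/
def symLift (g : MultilinearMap R (fun _ : ι => M) N)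
    (hg : ∀ (e : Equiv.Perm ι) (m : ι → M), g (fun i => m (e i)) = g m) :
    SymmetricPower R ι M →ₗ[R] N where
  __ := AddCon.lift (addConGen (SymmetricPower.Rel R ι M)) (PiTensorProduct.lift g).toAddMonoidHom
    (by
      rw [AddCon.addConGen_le]
      intro x y hxy
      cases hxy with
      | perm e m =>
        rw [AddCon.ker_rel, LinearMap.toAddMonoidHom_coe, PiTensorProduct.lift.tprod,
          PiTensorProduct.lift.tprod]
        exact (hg e m).symm)
  map_smul' r x := AddCon.induction_on x fun y => (PiTensorProduct.lift g).map_smul r y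

theorem symLift_tprod (g : MultilinearMap R (fun _ : ι => M) N)
    (hg : ∀ (e : Equiv.Perm ι) (m : ι → M), g (fun i => m (e i)) = g m) (m : ι → M) :
    symLift g hg (SymmetricPower.tprod R m) = g m :=
  PiTensorProduct.lift.tprod m

theorem sym_hom_ext {φ ψ : SymmetricPower R ι M →ₗ[R] N}
    (h : ∀ m : ι → M, φ (SymmetricPower.tprod R m) = ψ (SymmetricPower.tprod R m)) : φ = ψ := by
  refine LinearMap.ext_on (SymmetricPower.span_tprod_eq_top (R := R) (M := M) (ι := ι)) ?_
  rintro _ ⟨m, rfl⟩
  exact h m

theorem sym_hom_ext_of_span [Finite ι] (s : Set M) (hs : Submodule.span R s = ⊤)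
    {φ ψ : SymmetricPower R ι M →ₗ[R] N}
    (h : ∀ m : ι → M, (∀ i, m i ∈ s) →
      φ (SymmetricPower.tprod R m) = ψ (SymmetricPower.tprod R m)) : φ = ψ := by
  refine sym_hom_ext fun m => ?_
  have : φ.compMultilinearMap (SymmetricPower.tprod R) = ψ.compMultilinearMap (SymmetricPower.tprod R) :=
    multilinear_ext_of_span s hs fun x hx => h x hx
  exact congrArg (fun G => G m) this

end sym

section symBC

variable {R : Type u} {ι : Type u} {R' : Type u} [CommRing R] [CommRing R'] [Algebra R R']
  {M : Type v} {M' : Type w} [AddCommGroup M] [Module R M] [AddCommGroup M'] [Module R' M']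

variable (R R' ι M') in
/-- The `R`-module structure on `Sym^ι_{R'}(M')` by restriction of scalars (to be activated locally). -/
@[reducible]
def restrictModule : Module R (SymmetricPower R' ι M') := Module.compHom _ (algebraMap R R')

attribute [local instance] restrictModule in
variable (R R' ι M') in
theorem isScalarTower_restrict : IsScalarTower R R' (SymmetricPower R' ι M') := ⟨fun r s x => by
  change _ = (algebraMap R R' r) • (s • x)
  rw [← mul_smul, Algebra.smul_def]⟩

attribute [local instance] restrictModule isScalarTower_restrict

variable [Module R M'] [IsScalarTower R R' M']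

/-- The `R`-linear map `Sym^ι_R(M) → Sym^ι_{R'}(M')` induced by `f : M → M'` (for the `R`-module
structure `restrictModule` on the target). -/
def symMap (f : M →ₗ[R] M') : SymmetricPower R ι M →ₗ[R] SymmetricPower R' ι M' :=
  symLift (((SymmetricPower.tprod R' (ι := ι) (M := M')).restrictScalars R).compLinearMap
    (fun _ => f)) (fun e m => by
      simp only [MultilinearMap.compLinearMap_apply, MultilinearMap.coe_restrictScalars]
      exact SymmetricPower.tprod_equiv e (fun i => f (m i)))

theorem symMap_tprod (f : M →ₗ[R] M') (m : ι → M) :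
    symMap (R' := R') f (SymmetricPower.tprod R m) = SymmetricPower.tprod R' (fun i => f (m i)) :=
  symLift_tprod _ _ m

theorem symMap_smul (f : M →ₗ[R] M') (r : R) (x : SymmetricPower R ι M) :
    symMap (R' := R') f (r • x) = algebraMap R R' r • symMap f x :=
  (symMap f).map_smul r x

/-- The inverse direction `Sym^ι_{R'}(M') → R' ⊗ Sym^ι_R(M)`. -/
def symBCinv [Finite ι] {f : M →ₗ[R] M'} (hf : IsBaseChange R' f) :
    SymmetricPower R' ι M' →ₗ[R'] R' ⊗[R] SymmetricPower R ι M :=
  symLift (extend hf ((TensorProduct.mk R R' (SymmetricPower R ι M) 1).compMultilinearMap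
    (SymmetricPower.tprod R))) (extend_symm hf _ (fun e m => by
      simp only [LinearMap.compMultilinearMap_apply, SymmetricPower.tprod_equiv]))

theorem symBCinv_tprod [Finite ι] {f : M →ₗ[R] M'} (hf : IsBaseChange R' f) (m : ι → M) :
    symBCinv hf (SymmetricPower.tprod R' (fun i => f (m i))) = 1 ⊗ₜ SymmetricPower.tprod R m := by
  rw [symBCinv, symLift_tprod, extend_apply]
  rfl

/-- Symmetric powers commute with base change. -/
def symBC [Finite ι] {f : M →ₗ[R] M'} (hf : IsBaseChange R' f) :
    R' ⊗[R] SymmetricPower R ι M ≃ₗ[R'] SymmetricPower R' ι M' :=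
  LinearEquiv.ofLinearMap ((symMap (R' := R') (ι := ι) f).liftBaseChange R') (symBCinv hf)
    (sym_hom_ext_of_span (Set.range f) (span_range_eq_top hf) fun x hx => by
      choose m hm using hx
      have : x = fun i => f (m i) := funext fun i => (hm i).symm
      rw [this, LinearMap.comp_apply, symBCinv_tprod, LinearMap.liftBaseChange_tmul, one_smul,
        symMap_tprod, LinearMap.id_apply])
    (by
      refine TensorProduct.AlgebraTensorModule.curry_injective ?_
      refine LinearMap.ext_ring ?_
      refine sym_hom_ext fun m => ?_
      change symBCinv hf ((symMap (R' := R') (ι := ι) f).liftBaseChange R'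
        (1 ⊗ₜ SymmetricPower.tprod R m)) = 1 ⊗ₜ SymmetricPower.tprod R m
      rw [LinearMap.liftBaseChange_tmul, one_smul, symMap_tprod, symBCinv_tprod])

theorem symBC_tmul [Finite ι] {f : M →ₗ[R] M'} (hf : IsBaseChange R' f) (r : R')
    (x : SymmetricPower R ι M) : symBC hf (r ⊗ₜ x) = r • symMap f x :=
  LinearMap.liftBaseChange_tmul _ _ _ _

theorem symBC_tmul_tprod [Finite ι] {f : M →ₗ[R] M'} (hf : IsBaseChange R' f) (r : R')
    (m : ι → M) : symBC hf (r ⊗ₜ SymmetricPower.tprod R m) =
      r • SymmetricPower.tprod R' (fun i => f (m i)) := by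
  rw [symBC_tmul, symMap_tprod]

theorem symBC_symm_tprod [Finite ι] {f : M →ₗ[R] M'} (hf : IsBaseChange R' f) (m : ι → M) :
    (symBC hf).symm (SymmetricPower.tprod R' (fun i => f (m i))) = 1 ⊗ₜ SymmetricPower.tprod R m :=
  symBCinv_tprod hf m

/-- `Sym^ι_R(M) → Sym^ι_{R'}(M')` exhibits the target as the base change of the source. -/
theorem isBaseChange_symMap [Finite ι] {f : M →ₗ[R] M'} (hf : IsBaseChange R' f) :
    IsBaseChange R' (symMap (R' := R') (ι := ι) f) := by
  refine IsBaseChange.of_equiv (symBC hf) fun x => ?_
  rw [symBC_tmul, one_smul]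

end symBC

end Groth.Agent.Ega4late.H519.SymBC
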