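import Groth.Prelude.Def_PP16
import Groth.Agent.Ega4late.H519.SymBC

/-!
# Functoriality of the graded pieces `I^n / I^(n+1)`

For a commutative square `A → A'`, `B → B'` the canonical `B → B'`-semilinear map
`grI A B n → grI A' B' n`, its values on products, and the fact that these products generate.
-/

set_option autoImplicit false

noncomputable section

open scoped TensorProduct Pointwise
open PP16

namespace Groth.Agent.Ega4late.H519.GrMap

universe u

section

variable (A B A' B' : Type u) [CommRing A] [CommRing B] [Algebra A B]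
  [CommRing A'] [CommRing B'] [Algebra A' B'] [Algebra A A'] [Algebra B B'] [Algebra A B']
  [IsScalarTower A A' B'] [IsScalarTower A B B']

theorem tensorMap_smul (b : B) (x : B ⊗[A] B) :
    tensorMap A B A' B' (b • x) = algebraMap B B' b • tensorMap A B A' B' x := by
  rw [Algebra.smul_def, map_mul, Algebra.smul_def]
  congr 1
  rw [Algebra.TensorProduct.algebraMap_apply, tensorMap_tmul, map_one,
    Algebra.TensorProduct.algebraMap_apply]
  rfl

theorem tensorMap_mem_pow (n : ℕ) {x : B ⊗[A] B} (hx : x ∈ KaehlerDifferential.ideal A B ^ n) :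
    tensorMap A B A' B' x ∈ KaehlerDifferential.ideal A' B' ^ n := by
  have h := Ideal.pow_right_mono (n := n) (ideal_map_tensorMap_le A B A' B')
  rw [← Ideal.map_pow] at h
  exact h (Ideal.mem_map_of_mem _ hx)

/-- `I^n → I'^n`. -/
def powMap (n : ℕ) : ↥((KaehlerDifferential.ideal A B ^ n).restrictScalars B) →ₛₗ[algebraMap B B']
    ↥((KaehlerDifferential.ideal A' B' ^ n).restrictScalars B') where
  toFun x := ⟨tensorMap A B A' B' x.1, tensorMap_mem_pow A B A' B' n x.2⟩
  map_add' _ _ := Subtype.ext (map_add _ _ _)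
  map_smul' b x := Subtype.ext (tensorMap_smul A B A' B' b x.1)

/-- The canonical semilinear map `I^n/I^(n+1) → I'^n/I'^(n+1)`. -/
def grMap (n : ℕ) : grI A B n →ₛₗ[algebraMap B B'] grI A' B' n :=
  Submodule.mapQ _ _ (powMap A B A' B' n) (fun _ hx => tensorMap_mem_pow A B A' B' (n + 1) hx)

theorem grMap_mk (n : ℕ) (x : ↥((KaehlerDifferential.ideal A B ^ n).restrictScalars B)) :
    grMap A B A' B' n (Submodule.Quotient.mk x) = Submodule.Quotient.mk (powMap A B A' B' n x) :=
  rfl

theorem grMap_zetaProd {ι : Type u} [Fintype ι] (b : ι → B) :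
    grMap A B A' B' (Fintype.card ι) (zetaProd A B b) =
      zetaProd A' B' (fun i => algebraMap B B' (b i)) := by
  rw [zetaProd, grMap_mk, zetaProd]
  congr 1
  refine Subtype.ext ?_
  change tensorMap A B A' B' (∏ i, _) = ∏ i, _
  rw [map_prod]
  refine Finset.prod_congr rfl fun i _ => ?_
  rw [map_sub, tensorMap_tmul, tensorMap_tmul, map_one]

end

section span

variable (A B : Type u) [CommRing A] [CommRing B] [Algebra A B]

/-- In `I^n/I^(n+1)` the two `B`-structures agree: multiplication by `x : B ⊗ B` is the action of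
its image in `B`. -/
theorem mk_mul (n : ℕ) (x : B ⊗[A] B) (y : B ⊗[A] B) (hy : y ∈ KaehlerDifferential.ideal A B ^ n)
    (hxy : x * y ∈ KaehlerDifferential.ideal A B ^ n) :
    (Submodule.Quotient.mk ⟨x * y, hxy⟩ : grI A B n) =
      Algebra.TensorProduct.lmul' A (S := B) x • (Submodule.Quotient.mk ⟨y, hy⟩ : grI A B n) := by
  rw [← Submodule.Quotient.mk_smul, Submodule.Quotient.eq, Submodule.mem_comap]
  change x * y - (Algebra.TensorProduct.lmul' A (S := B) x) • y ∈
    KaehlerDifferential.ideal A B ^ (n + 1)
  rw [Algebra.smul_def, ← sub_mul, pow_succ']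
  refine Ideal.mul_mem_mul ?_ hy
  rw [KaehlerDifferential.ideal, RingHom.mem_ker, map_sub, sub_eq_zero,
    Algebra.TensorProduct.algebraMap_apply, Algebra.TensorProduct.lmul'_apply_tmul]
  simp

/-- The classes of the products `∏ (1 ⊗ b_i - b_i ⊗ 1)` generate `I^n/I^(n+1)` over `B`. -/
theorem span_zetaProd (ι : Type u) [Fintype ι] :
    Submodule.span B (Set.range (zetaProd A B (ι := ι))) = ⊤ := by
  classical
  have hI : KaehlerDifferential.ideal A B ^ Fintype.card ι =
      Submodule.span (B ⊗[A] B)
        ((Set.range fun b : B => (1 : B) ⊗ₜ[A] b - b ⊗ₜ[A] (1 : B)) ^ Fintype.card ι) := by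
    rw [← KaehlerDifferential.span_range_eq_ideal, Ideal.span, Submodule.span_pow]
  have key : ∀ (x : B ⊗[A] B) (hx : x ∈ KaehlerDifferential.ideal A B ^ Fintype.card ι),
      (Submodule.Quotient.mk ⟨x, hx⟩ : grI A B (Fintype.card ι)) ∈
        Submodule.span B (Set.range (zetaProd A B (ι := ι))) := by
    intro x hx
    have hx' := hx
    rw [hI] at hx'
    induction hx' using Submodule.span_induction with
    | mem x hxS =>
      rw [← Finset.card_univ, ← Finset.prod_const, Set.mem_fintype_prod] at hxS
      obtain ⟨g, hg, rfl⟩ := hxS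
      choose b hb using hg
      refine Submodule.subset_span ⟨b, ?_⟩
      rw [zetaProd]
      congr 2
      exact Finset.prod_congr rfl fun i _ => hb i
    | zero => exact Submodule.zero_mem _
    | add x y hxs hys h1 h2 =>
      rw [← hI] at hxs hys
      exact Submodule.add_mem _ (h1 hxs) (h2 hys)
    | smul a x hxs h1 =>
      rw [← hI] at hxs
      have := mk_mul A B _ a x hxs hx
      change (Submodule.Quotient.mk ⟨a * x, hx⟩ : grI A B (Fintype.card ι)) ∈ _
      rw [this]
      exact Submodule.smul_mem _ _ (h1 hxs)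
  rw [eq_top_iff]
  rintro y -
  obtain ⟨⟨x, hx⟩, rfl⟩ := Submodule.Quotient.mk_surjective _ y
  exact key x hx

end span

end Groth.Agent.Ega4late.H519.GrMap
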